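import Groth.Agent.Pi1.H387.FnGeom
import Groth.Agent.Pi1A.NormalEtale

/-!
# Connectedness of the complex points of a connected cover away from the branch points
-/

set_option autoImplicit false

universe u

open CategoryTheory AlgebraicGeometry Topology Polynomial

noncomputable section

namespace Groth.Agent.Pi1.H387.Conn

open Groth.Agent.Pi1.H387.Pts Groth.Agent.Pi1.H387.P1Data Groth.Agent.Pi1.H387.Fn
  Groth.Agent.Pi1.H387.EtaleLoc Groth.Agent.Pi1.H387.FnGeom

theorem isPreconnected_ne_zero (B : Type u) [CommRing B] [IsDomain B] [Algebra ℂ B]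
    [Algebra.FiniteType ℂ B] (h : B) : IsPreconnected {y : Pts B | y h ≠ 0} := by
  by_cases hh : h = 0
  · have h0 : {y : Pts B | y h ≠ 0} = ∅ := by
      ext y
      simp only [Set.mem_ofPred_eq, Set.mem_empty_iff_false, iff_false, not_not, hh]
      exact map_zero (y : B →ₐ[ℂ] ℂ)
    rw [h0]
    exact isPreconnected_empty
  · have hd : IsDomain (Localization.Away h) :=
      IsLocalization.isDomain_localization (powers_le_nonZeroDivisors_of_noZeroDivisors hh)
    have hf' : Algebra.FinitePresentation B (Localization.Away h) :=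
      IsLocalization.Away.finitePresentation h
    have hf : Algebra.FiniteType ℂ (Localization.Away h) :=
      Algebra.FiniteType.trans (S := B) inferInstance inferInstance
    have hp := Pts.preconnectedSpace (Localization.Away h)
    rw [← Pts.range_proj (Bf := Localization.Away h) h]
    exact isPreconnected_range continuous_proj

variable {K : Type u} [Field K] (e : ℂ ≃+* K) {X : Scheme.{u}} [X.Over (Spec (CommRingCat.of K))]
  {W : X.Opens} (f : Γ(X, W))

theorem isDomain_Fn [IsIntegral X] (hN : Pi1.IsNormalScheme X) (hne : (W : Set X).Nonempty)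
    (Z : FEt.Cat X) [ConnectedSpace Z.left] : IsDomain (Fn e W f Z) := by
  have h1 : Etale Z.hom := Z.prop.2
  have h3 : IsIntegral Z.left := Groth.Agent.Pi1A.NormalEtale.isIntegral_of_connectedSpace hN Z.hom
  have h4 : Nonempty (Z.hom ⁻¹ᵁ W) := by
    obtain ⟨z⟩ := (inferInstance : Nonempty Z.left)
    have ho : IsOpen (Set.range Z.hom) := Z.hom.isOpenMap.isOpen_range
    obtain ⟨x, ⟨y, rfl⟩, hxW⟩ :=
      nonempty_preirreducible_inter (X := X) ho W.2 ⟨Z.hom z, z, rfl⟩ hne
    exact ⟨⟨y, hxW⟩⟩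
  exact (inferInstance : IsDomain Γ(Z.left, Z.hom ⁻¹ᵁ W))

theorem isDomain_Fn₀ [IsIntegral X] (hne : (W : Set X).Nonempty) : IsDomain (Fn₀ e W f) := by
  have h4 : Nonempty W := hne.to_subtype
  exact (inferInstance : IsDomain Γ(X, W))

section data

variable (D : Data K X)

instance finiteType₀ : Algebra.FiniteType ℂ (Fn₀ e D.W0 D.t) :=
  Algebra.FiniteType.trans (S := ℂ[X]) inferInstance inferInstance

instance finiteTypeI₀ : Algebra.FiniteType ℂ (Fn₀ e D.Wi D.s) :=
  Algebra.FiniteType.trans (S := ℂ[X]) inferInstance inferInstance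

instance finiteTypeZ (Z : FEt.Cat X) : Algebra.FiniteType ℂ (Fn e D.W0 D.t Z) :=
  Algebra.FiniteType.trans (S := ℂ[X]) inferInstance inferInstance

lemma preimage_br (B : Type u) [CommRing B] [Algebra ℂ B] [Algebra ℂ[X] B] [IsScalarTower ℂ ℂ[X] B] :
    coord B ⁻¹' ((br e D : Finset ℂ) : Set ℂ)ᶜ =
      {y : Pts B | y (algebraMap ℂ[X] B (brPoly e D)) ≠ 0} := by
  ext y
  rw [Set.mem_preimage, ← eval_brPoly, Set.mem_ofPred_eq, apply_algebraMap]

theorem isPreconnected_preimage [IsIntegral X] (hN : Pi1.IsNormalScheme X)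
    (hne : (D.W0 : Set X).Nonempty) (Z : FEt.Cat X) [ConnectedSpace Z.left] :
    IsPreconnected (coord (Fn e D.W0 D.t Z) ⁻¹' ((br e D : Finset ℂ) : Set ℂ)ᶜ) := by
  have h1 := isDomain_Fn e D.t hN hne Z
  rw [preimage_br]
  exact isPreconnected_ne_zero _ _

theorem isPreconnected_preimage₀ [IsIntegral X] (hne : (D.W0 : Set X).Nonempty) :
    IsPreconnected (coord (Fn₀ e D.W0 D.t) ⁻¹' ((br e D : Finset ℂ) : Set ℂ)ᶜ) := by
  have h1 := isDomain_Fn₀ e D.t hne
  rw [preimage_br]
  exact isPreconnected_ne_zero _ _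

end data

end Groth.Agent.Pi1.H387.Conn
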