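import Groth.Agent.Pi1.H147.Fib
import Mathlib.Topology.Covering.Basic

/-!
# Local components and étale covers: small punctured discs lie in evenly covered neighbourhoods
-/

set_option autoImplicit false

open Topology Set

namespace Groth.Agent.Pi1.H387.Ends

open Groth.Agent.Pi1.H147.Mono Groth.Agent.Pi1.H147.Slit Groth.Agent.Pi1.H147.Disc
  Groth.Agent.Pi1.H147.Sec Groth.Agent.Pi1.H147.TwoChart Groth.Agent.Pi1.H147.Fib

section top

variable {X X' : Type*} [TopologicalSpace X] [TopologicalSpace X'] {T : Type*} [TopologicalSpace T]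

/-- Over a small neighbourhood of `c` a preconnected set lies near exactly one point over `c`. -/
theorem exists_small [T2Space X] {q : X → T} (hqc : IsClosedMap q) {c : T}
    (hfin : (q ⁻¹' {c}).Finite) (N : X → Set X) (hN : ∀ x, q x = c → N x ∈ 𝓝 x) :
    ∃ U ∈ 𝓝 c, ∀ C : Set X, IsPreconnected C → C.Nonempty → C ⊆ q ⁻¹' U →
      ∃ x, q x = c ∧ C ⊆ N x ∧ ∀ y, q y = c → y ∈ closure C → y = x := by
  obtain ⟨U, hU, hUd⟩ := hfin.t2_separation
  let M : X → Set X := fun x => U x ∩ interior (N x)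
  have hMo : ∀ x, IsOpen (M x) := fun x => (hU x).2.inter isOpen_interior
  have hMx : ∀ x, q x = c → x ∈ M x := fun x hx =>
    ⟨(hU x).1, mem_interior_iff_mem_nhds.2 (hN x hx)⟩
  have hfM : q ⁻¹' {c} ⊆ ⋃ x ∈ q ⁻¹' {c}, M x := fun x hx => mem_iUnion₂.2 ⟨x, hx, hMx x hx⟩
  have hoM : IsOpen (⋃ x ∈ q ⁻¹' {c}, M x) := isOpen_biUnion fun x _ => hMo x
  refine ⟨(q '' (⋃ x ∈ q ⁻¹' {c}, M x)ᶜ)ᶜ, ?_, ?_⟩
  · refine (hqc _ hoM.isClosed_compl).isOpen_compl.mem_nhds ?_
    rintro ⟨x, hx, hxc⟩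
    exact hx (hfM hxc)
  · intro C hC hne hCU
    have hCM : C ⊆ ⋃ x ∈ q ⁻¹' {c}, M x := by
      intro y hy
      by_contra hyM
      exact hCU hy ⟨y, hyM, rfl⟩
    obtain ⟨y, hy⟩ := hne
    obtain ⟨x, hx, hyx⟩ := mem_iUnion₂.1 (hCM hy)
    have h1 : C ⊆ M x := by
      refine hC.subset_left_of_subset_union (hMo x)
        (isOpen_biUnion (s := q ⁻¹' {c} \ {x}) fun z _ => hMo z) ?_ ?_ ⟨y, hy, hyx⟩
      · rw [Set.disjoint_left]
        intro a ha ha'
        obtain ⟨z, hz, haz⟩ := mem_iUnion₂.1 ha'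
        exact (Set.disjoint_left.1 (hUd hx hz.1 (fun h => hz.2 h.symm))) ha.1 haz.1
      · intro a ha
        obtain ⟨z, hz, haz⟩ := mem_iUnion₂.1 (hCM ha)
        by_cases hzx : z = x
        · exact Or.inl (hzx ▸ haz)
        · exact Or.inr (mem_iUnion₂.2 ⟨z, ⟨hz, hzx⟩, haz⟩)
    refine ⟨x, hx, fun a ha => interior_subset (h1 ha).2, fun z hz hzC => ?_⟩
    by_contra hzx
    obtain ⟨a, ha1, ha2⟩ := (mem_closure_iff.1 hzC) (U z) (hU z).2 (hU z).1
    exact (Set.disjoint_left.1 (hUd hz hx hzx)) ha1 (h1 ha2).1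

/-- A covering map is injective on preconnected sets over an evenly covered set. -/
theorem exists_injOn {π : X' → X} (hπ : IsCoveringMap π) (x : X) :
    ∃ N ∈ 𝓝 x, ∀ C : Set X', IsPreconnected C → π '' C ⊆ N → InjOn π C := by
  obtain ⟨hd, U, hxU, hU, -, H, hH⟩ := hπ x
  refine ⟨U, hU.mem_nhds hxU, fun C hC hCN y hy z hz hyz => ?_⟩
  have hCs : C ⊆ π ⁻¹' U := fun a ha => hCN ⟨a, ha, rfl⟩
  let g : C → π ⁻¹' {x} := fun a => (H ⟨a.1, hCs a.2⟩).2
  have hg : Continuous g :=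
    continuous_snd.comp (H.continuous.comp (Continuous.subtype_mk continuous_subtype_val _))
  have : PreconnectedSpace C := Subtype.preconnectedSpace hC
  have h3 : g ⟨y, hy⟩ = g ⟨z, hz⟩ := PreconnectedSpace.constant inferInstance hg
  have h4 : H ⟨y, hCs hy⟩ = H ⟨z, hCs hz⟩ := by
    refine Prod.ext (Subtype.ext ?_) h3
    rw [hH, hH]
    exact hyz
  exact congrArg Subtype.val (H.injective h4)

/-- The points over `c` inject into the set of components of a punctured neighbourhood. -/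
theorem exists_injective [T2Space X] {q : X → T} (hqc : IsClosedMap q) {c : T}
    (hq : Continuous q) (hfin : (q ⁻¹' {c}).Finite) (hd : Dense {x | q x ≠ c})
    {R O : Type*} [Finite O] {B : R → Set T} (C : R → O → Set X)
    (hB : ∀ U ∈ 𝓝 c, ∃ r, B r ⊆ U) (hBc : ∀ r, B r ∈ 𝓝 c)
    (hF : ∀ r, IsFamily (q ⁻¹' (B r \ {c})) (C r)) :
    ∃ f : q ⁻¹' {c} → O, Function.Injective f := by
  obtain ⟨U, hU, hUC⟩ := exists_small hqc hfin (fun _ => univ) (fun _ _ => Filter.univ_mem)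
  obtain ⟨r, hr⟩ := hB U hU
  have h1 : ∀ x : q ⁻¹' {c}, ∃ o, x.1 ∈ closure (C r o) := by
    intro x
    have h2 : x.1 ∈ closure (⋃ o, C r o) := by
      rw [(hF r).iUnion, mem_closure_iff_nhds]
      intro M hM
      have h3 : M ∩ q ⁻¹' (B r) ∈ 𝓝 x.1 := by
        refine Filter.inter_mem hM (hq.continuousAt.preimage_mem_nhds ?_)
        rw [show q x.1 = c from x.2]
        exact hBc r
      obtain ⟨y, hy, hyd⟩ := (mem_closure_iff_nhds.1 (hd x.1)) _ h3
      exact ⟨y, hy.1, hy.2, hyd⟩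
    rw [closure_iUnion_of_finite] at h2
    exact mem_iUnion.1 h2
  choose f hf using h1
  refine ⟨f, fun x y hxy => Subtype.ext ?_⟩
  obtain ⟨z, -, -, hz⟩ := hUC (C r (f x)) ((hF r).isPreconnected _) ((hF r).nonempty _)
    (((hF r).subset _).trans fun a ha => hr ha.1)
  rw [hz x.1 x.2 (hf x), hz y.1 y.2 (hxy ▸ hf y)]

/-- Over a small punctured neighbourhood of `c`, an étale cover is injective on components. -/
theorem exists_injOn_comp [T2Space X] {q : X → T} (hqc : IsClosedMap q) {c : T}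
    (hfin : (q ⁻¹' {c}).Finite) {π : X' → X} (hπ : IsCoveringMap π)
    {R O O' : Type*} {B : R → Set T} (C : R → O → Set X) (C' : R → O' → Set X')
    (hB : ∀ U ∈ 𝓝 c, ∃ r, B r ⊆ U) (hF : ∀ r, IsFamily (q ⁻¹' (B r \ {c})) (C r))
    (hF' : ∀ r o', IsPreconnected (C' r o')) (hmap : ∀ r o', ∃ o, π '' C' r o' ⊆ C r o) :
    ∃ r, ∀ o', InjOn π (C' r o') := by
  choose N hN hNi using fun x => exists_injOn hπ x
  obtain ⟨U, hU, hUC⟩ := exists_small hqc hfin N (fun x _ => hN x)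
  obtain ⟨r, hr⟩ := hB U hU
  refine ⟨r, fun o' => ?_⟩
  obtain ⟨o, ho⟩ := hmap r o'
  obtain ⟨x, -, hx, -⟩ := hUC (C r o) ((hF r).isPreconnected _) ((hF r).nonempty _)
    (((hF r).subset _).trans fun a ha => hr ha.1)
  exact hNi x _ (hF' r o') (ho.trans hx)

end top

/-- The abstract argument: if the cover is injective on the component of `y`, a power of the local
monodromy which fixes the image of `y` fixes `y`. -/
theorem zpow_apply_eq_self {E E' F F' : Type*} {σ : Equiv.Perm F} {σ' : Equiv.Perm F'}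
    (π : E' → E) (πF : F' → F) (hπσ : ∀ y, πF (σ' y) = σ (πF y)) (τ : F → E) (τ' : F' → E')
    (hτ' : Function.Injective τ') (hττ' : ∀ y, π (τ' y) = τ (πF y)) (C' : Orb σ' → Set E')
    (hC' : ∀ y, τ' y ∈ C' (Orb.mk σ' y)) (hinj : ∀ o, InjOn π (C' o)) (m : ℤ) (y : F')
    (hy : (σ ^ m) (πF y) = πF y) : (σ' ^ m) y = y := by
  have h1 : Orb.mk σ' ((σ' ^ m) y) = Orb.mk σ' y := (Orb.mk_eq_iff _ _).2 ⟨m, rfl⟩
  refine hτ' (hinj (Orb.mk σ' y) ?_ (hC' y) ?_)
  · rw [← h1]
    exact hC' _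
  · rw [hττ', hττ', Orb.zpow_apply_of πF hπσ, hy]

section finite

variable {n : ℕ} {b : Fin n → ℂ} (hb : StrictMono fun i => (b i).re)
  {E E' : Type*} [TopologicalSpace E] [TopologicalSpace E'] {p : E → ℂ} {p' : E' → ℂ}
  (hp : IsCoveringMapOn p (Pl b)) (hp' : IsCoveringMapOn p' (Pl b)) (i : Fin n)

theorem exists_ball (U : Set ℂ) (hU : U ∈ 𝓝 (b i)) (hb : StrictMono fun i => (b i).re) :
    ∃ r : {r // IsSmall b i r}, Metric.ball (b i) r.1 ⊆ U := by
  obtain ⟨r₀, hr₀⟩ := exists_isSmall b hb i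
  obtain ⟨ε, hε, hεU⟩ := Metric.mem_nhds_iff.1 hU
  exact ⟨⟨min r₀ ε, hr₀.mono b (lt_min hr₀.1 hε) (min_le_left _ _)⟩,
    (Metric.ball_subset_ball (min_le_right _ _)).trans hεU⟩

/-- The points over `b i` inject into the orbits of the monodromy around `b i`. -/
theorem fin_injective [T2Space E] (hpc : IsClosedMap p) (hpcont : Continuous p)
    (hfin : (p ⁻¹' {b i}).Finite) (hd : Dense {x | p x ≠ b i}) [Finite (p ⁻¹' {pt hb 0})] :
    ∃ f : p ⁻¹' {b i} → Orb (mon hb hp i), Function.Injective f :=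
  exists_injective hpc hpcont hfin hd (R := {r // IsSmall b i r})
    (B := fun r => Metric.ball (b i) r.1) (fun r o => locComp hb hp i r.1 o)
    (fun U hU => exists_ball i U hU hb) (fun r => Metric.ball_mem_nhds _ r.2.1)
    (fun r => isFamily_locComp hb hp i r.2)

/-- **Triviality at a finite puncture.** -/
theorem fin_trivial [T2Space E] (hpc : IsClosedMap p) (hfin : (p ⁻¹' {b i}).Finite)
    (π : E' → E) (hπ : IsCoveringMap π) (hπp : ∀ e, p (π e) = p' e) (m : ℤ)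
    (y : p' ⁻¹' {pt hb 0})
    (hy : (mon hb hp i ^ m) (fmap hb π (fun e _ => hπp e) y) = fmap hb π (fun e _ => hπp e) y) :
    (mon hb hp' i ^ m) y = y := by
  have hπc : ContinuousOn π (p' ⁻¹' (Pl b)) := hπ.continuous.continuousOn
  obtain ⟨⟨r, hr⟩, hinj⟩ := exists_injOn_comp hpc hfin hπ (R := {r // IsSmall b i r})
    (B := fun r => Metric.ball (b i) r.1) (fun r o => locComp hb hp i r.1 o)
    (fun r o => locComp hb hp' i r.1 o)
    (fun U hU => exists_ball i U hU hb) (fun r => isFamily_locComp hb hp i r.2)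
    (fun r o => (isFamily_locComp hb hp' i r.2).isPreconnected o)
    (fun r o => ⟨Orb.map (fmap hb π fun e _ => hπp e) (fmap_mon hb hp' hp π hπc (fun e _ => hπp e) i) o,
      by
        rintro _ ⟨x, hx, rfl⟩
        exact map_locComp hb hp' hp i π hπc (fun e _ => hπp e) r.1 o hx⟩)
  obtain ⟨z, ⟨hz, -⟩, -⟩ := inter_strip_left b hr hb
  refine zpow_apply_eq_self π (fmap hb π fun e _ => hπp e)
    (fmap_mon hb hp' hp π hπc (fun e _ => hπp e) i)
    (fun e => (tr hp (good_pos b) (half_subset_pl b 1) (pt_pos hb 0) (dHalf_subset b hr 1 hz) e).1)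
    (fun e => (tr hp' (good_pos b) (half_subset_pl b 1) (pt_pos hb 0) (dHalf_subset b hr 1 hz) e).1)
    ?_ ?_ (locComp hb hp' i r) (fun y => tr_mem_locComp hb hp' i hr y hz) hinj m y hy
  · exact Subtype.val_injective.comp (trEquiv hp' (good_pos b) (half_subset_pl b 1) (pt_pos hb 0)
      (dHalf_subset b hr 1 hz)).injective
  · intro y
    exact map_tr hp' hp (good_pos b) (half_subset_pl b 1) π hπc (fun e _ => hπp e)
      (pt_pos hb 0) _ y _ rfl

end finite

end Groth.Agent.Pi1.H387.Ends
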