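import Groth.Agent.Pi1.H387.Ends

/-!
# Infinity: points over infinity, triviality of the cover there
-/

set_option autoImplicit false

open Topology Set

namespace Groth.Agent.Pi1.H387.EndsInf

open Groth.Agent.Pi1.H147.Mono Groth.Agent.Pi1.H147.Slit Groth.Agent.Pi1.H147.Disc
  Groth.Agent.Pi1.H147.Sec Groth.Agent.Pi1.H147.TwoChart Groth.Agent.Pi1.H147.Fib
  Groth.Agent.Pi1.H387.Ends

/-- Gluing of `p : E → ℂ` and `q : X → ℂ` along `q = 1 / p`. -/
structure InfData {E E₀ X : Type*} [TopologicalSpace E] [TopologicalSpace E₀] [TopologicalSpace X]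
    (p : E → ℂ) (q : X → ℂ) (κ : E₀ → E) (ι : E₀ → X) : Prop where
  hκ : IsOpenEmbedding κ
  hι : IsOpenEmbedding ι
  comm : ∀ e, q (ι e) * p (κ e) = 1
  rangeκ : ∀ e, p e ≠ 0 → e ∈ range κ
  rangeι : ∀ x, q x ≠ 0 → x ∈ range ι

variable {n : ℕ} {b : Fin n → ℂ} (hb : StrictMono fun i => (b i).re)
  {E E₀ X : Type*} [TopologicalSpace E] [TopologicalSpace E₀] [TopologicalSpace X]
  {p : E → ℂ} (hp : IsCoveringMapOn p (Pl b)) {q : X → ℂ} {κ : E₀ → E} {ι : E₀ → X}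

theorem InfData.isFamily (h : InfData p q κ ι) {R : ℝ} (hR : 2 * bd b ≤ R) :
    IsFamily (q ⁻¹' (Metric.ball 0 R⁻¹ \ {0})) (fun o => ι '' (κ ⁻¹' infComp hb hp R o)) := by
  have hbd := bd_pos b
  have hR0 : 0 < R := by linarith
  have hV : q ⁻¹' (Metric.ball 0 R⁻¹ \ {0}) = ι '' (κ ⁻¹' (p ⁻¹' {z | R < ‖z‖})) := by
    have h1 : ∀ e, q (ι e) ∈ Metric.ball 0 R⁻¹ \ {0} ↔ R < ‖p (κ e)‖ := by
      intro e
      have hc := h.comm e
      have hp0 : p (κ e) ≠ 0 := right_ne_zero_of_mul_eq_one hc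
      have hq : q (ι e) = (p (κ e))⁻¹ := eq_inv_of_mul_eq_one_left hc
      rw [hq]
      constructor
      · rintro ⟨hlt, -⟩
        rw [mem_ball_zero_iff, norm_inv] at hlt
        exact (inv_lt_inv₀ (norm_pos_iff.2 hp0) hR0).1 hlt
      · intro hlt
        refine ⟨?_, inv_ne_zero hp0⟩
        rw [mem_ball_zero_iff, norm_inv]
        exact (inv_lt_inv₀ (norm_pos_iff.2 hp0) hR0).2 hlt
    ext x
    constructor
    · intro hx
      obtain ⟨e, rfl⟩ := h.rangeι x hx.2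
      exact ⟨e, (h1 e).1 hx, rfl⟩
    · rintro ⟨e, he, rfl⟩
      exact (h1 e).2 he
  rw [hV]
  refine ((isFamily_infComp hb hp hR).preimage h.hκ ?_).image h.hι
  intro e he
  refine h.rangeκ e ?_
  have he' : R < ‖p e‖ := he
  exact norm_pos_iff.1 (hR0.trans he')

theorem exists_ball (b : Fin n → ℂ) (U : Set ℂ) (hU : U ∈ 𝓝 (0 : ℂ)) :
    ∃ R : {R // 2 * bd b ≤ R}, Metric.ball (0 : ℂ) (R.1)⁻¹ ⊆ U := by
  have hbd := bd_pos b
  obtain ⟨ε, hε, hεU⟩ := Metric.mem_nhds_iff.1 hU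
  refine ⟨⟨max (2 * bd b) ε⁻¹, le_max_left _ _⟩, ?_⟩
  refine (Metric.ball_subset_ball ?_).trans hεU
  have h1 : ε⁻¹ ≤ max (2 * bd b) ε⁻¹ := le_max_right _ _
  exact (inv_le_comm₀ (lt_of_lt_of_le (inv_pos.2 hε) h1) hε).2 h1

/-- The points over infinity inject into the orbits of the monodromy around infinity. -/
theorem inf_injective [T2Space X] (h : InfData p q κ ι) (hqc : IsClosedMap q)
    (hqcont : Continuous q) (hfin : (q ⁻¹' {0}).Finite) (hd : Dense {x | q x ≠ 0})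
    [Finite (p ⁻¹' {pt hb 0})] :
    ∃ f : q ⁻¹' {0} → Orb (monInf hb hp), Function.Injective f :=
  have hbd := bd_pos b
  exists_injective hqc hqcont hfin hd (R := {R // 2 * bd b ≤ R})
    (B := fun R => Metric.ball 0 (R.1)⁻¹) (fun R o => ι '' (κ ⁻¹' infComp hb hp R.1 o))
    (exists_ball b) (fun R => Metric.ball_mem_nhds _ (inv_pos.2 (by linarith [R.2])))
    (fun R => h.isFamily hb hp R.2)

variable {E' E₀' X' : Type*} [TopologicalSpace E'] [TopologicalSpace E₀'] [TopologicalSpace X']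
  {p' : E' → ℂ} (hp' : IsCoveringMapOn p' (Pl b)) {q' : X' → ℂ} {κ' : E₀' → E'} {ι' : E₀' → X'}

theorem iHalf_nonempty (b : Fin n → ℂ) {R : ℝ} (hR : 2 * bd b ≤ R) :
    (IHalf (bd b) R 1).Nonempty := by
  obtain ⟨z, ⟨hz, -⟩, -⟩ := inter_strip_zero b (isLarge_bd b hR)
  exact ⟨z, hz⟩

/-- **Triviality at infinity.** -/
theorem inf_trivial [T2Space X] (h : InfData p q κ ι) (h' : InfData p' q' κ' ι')
    (hqc : IsClosedMap q) (hfin : (q ⁻¹' {0}).Finite)
    (π : E' → E) (hπc : Continuous π) (hπp : ∀ e, p (π e) = p' e) (π₀ : E₀' → E₀)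
    (ϖ : X' → X) (hϖ : IsCoveringMap ϖ) (hκπ : ∀ e, κ (π₀ e) = π (κ' e))
    (hιπ : ∀ e, ι (π₀ e) = ϖ (ι' e)) (m : ℤ) (y : p' ⁻¹' {pt hb 0})
    (hy : (monInf hb hp ^ m) (fmap hb π (fun e _ => hπp e) y) = fmap hb π (fun e _ => hπp e) y) :
    (monInf hb hp' ^ m) y = y := by
  have hπc' : ContinuousOn π (p' ⁻¹' (Pl b)) := hπc.continuousOn
  obtain ⟨⟨R, hR⟩, hinj⟩ := exists_injOn_comp hqc hfin hϖ (R := {R // 2 * bd b ≤ R})
    (B := fun R => Metric.ball 0 (R.1)⁻¹) (fun R o => ι '' (κ ⁻¹' infComp hb hp R.1 o))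
    (fun R o => ι' '' (κ' ⁻¹' infComp hb hp' R.1 o))
    (exists_ball b) (fun R => h.isFamily hb hp R.2)
    (fun R o => (h'.isFamily hb hp' R.2).isPreconnected o)
    (fun R o => ⟨Orb.map (fmap hb π fun e _ => hπp e)
      (fmap_monInf hb hp' hp π hπc' (fun e _ => hπp e)) o, by
        rintro _ ⟨_, ⟨x, hx, rfl⟩, rfl⟩
        refine ⟨π₀ x, ?_, hιπ x⟩
        rw [mem_preimage, hκπ]
        exact map_infComp hb hp' hp π hπc' (fun e _ => hπp e) R.1 o hx⟩)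
  have hbd := bd_pos b
  have hR0 : 0 < R := by linarith
  have hinj' : ∀ o, InjOn π (infComp hb hp' R o) := by
    intro o u hu v hv huv
    have hr : ∀ w ∈ infComp hb hp' R o, w ∈ range κ' := by
      intro w hw
      refine h'.rangeκ w ?_
      have hw' : R < ‖p' w‖ := (isFamily_infComp hb hp' hR).subset o hw
      exact norm_pos_iff.1 (hR0.trans hw')
    obtain ⟨u, rfl⟩ := hr u hu
    obtain ⟨v, rfl⟩ := hr v hv
    rw [← hκπ, ← hκπ] at huv
    have h1 : π₀ u = π₀ v := h.hκ.injective huv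
    have h2 : ϖ (ι' u) = ϖ (ι' v) := by rw [← hιπ, ← hιπ, h1]
    have h3 := hinj o ⟨u, hu, rfl⟩ ⟨v, hv, rfl⟩ h2
    rw [h'.hι.injective h3]
  obtain ⟨z, hz⟩ := iHalf_nonempty b hR
  have hz' := iHalf_subset b (isLarge_bd b hR) 1 (by norm_num) hz
  refine zpow_apply_eq_self π (fmap hb π fun e _ => hπp e)
    (fmap_monInf hb hp' hp π hπc' (fun e _ => hπp e))
    (fun e => (tr hp (good_pos b) (half_subset_pl b 1) (pt_pos hb 0) hz' e).1)
    (fun e => (tr hp' (good_pos b) (half_subset_pl b 1) (pt_pos hb 0) hz' e).1)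
    ?_ ?_ (infComp hb hp' R) (fun y => tr_mem_infComp hb hp' hR y hz) hinj' m y hy
  · exact Subtype.val_injective.comp (trEquiv hp' (good_pos b) (half_subset_pl b 1) (pt_pos hb 0)
      hz').injective
  · intro y
    exact map_tr hp' hp (good_pos b) (half_subset_pl b 1) π hπc' (fun e _ => hπp e)
      (pt_pos hb 0) _ y _ rfl

end Groth.Agent.Pi1.H387.EndsInf
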