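import Groth.Agent.Pi1.H387.PtsCov
import Mathlib.RingTheory.Etale.Basic

/-!
# Étaleness after inverting an element; covering maps over an open subset of the line
-/

set_option autoImplicit false

open Polynomial Topology

noncomputable section

namespace Groth.Agent.Pi1.H387.EtaleLoc

open Groth.Agent.Pi1.H387.Pts

section

variable {R A : Type*} [CommRing R] [CommRing A] [Algebra R A] (h : R)

/-- The map of localizations. -/
@[implicit_reducible]
def locAlg : Algebra (Localization.Away h) (Localization.Away (algebraMap R A h)) :=
  (IsLocalization.Away.lift (S := Localization.Away h) h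
    (g := algebraMap R (Localization.Away (algebraMap R A h))) (by
      rw [IsScalarTower.algebraMap_apply R A (Localization.Away (algebraMap R A h))]
      exact IsLocalization.Away.algebraMap_isUnit _)).toAlgebra

lemma isScalarTower_locAlg : letI := locAlg (A := A) h
    IsScalarTower R (Localization.Away h) (Localization.Away (algebraMap R A h)) := by
  letI := locAlg (A := A) h
  refine IsScalarTower.of_algebraMap_eq fun r => ?_
  exact (IsLocalization.Away.lift_eq (S := Localization.Away h) h _ r).symm

lemma etale_locAlg [Algebra.Etale R (Localization.Away (algebraMap R A h))] :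
    letI := locAlg (A := A) h
    Algebra.Etale (Localization.Away h) (Localization.Away (algebraMap R A h)) := by
  let _ := locAlg (A := A) h
  have := isScalarTower_locAlg (A := A) h
  have : Algebra.Etale R (Localization.Away h) :=
    Algebra.Etale.of_isLocalizationAway h
  exact Algebra.Etale.of_restrictScalars R (Localization.Away h) _

lemma finite_locAlg [Module.Finite R A] :
    letI := locAlg (A := A) h
    Module.Finite (Localization.Away h) (Localization.Away (algebraMap R A h)) := by
  let _ := locAlg (A := A) h
  have := isScalarTower_locAlg (A := A) h
  have h1 : IsLocalization (Algebra.algebraMapSubmonoid A (Submonoid.powers h))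
      (Localization.Away (algebraMap R A h)) := by
    rw [Algebra.algebraMapSubmonoid_powers]
    infer_instance
  exact Module.Finite.of_isLocalization R A (Submonoid.powers h)

end

section

variable (R A B : Type*) [CommRing R] [CommRing A] [Algebra R A] [CommRing B] [Algebra A B]
  [Algebra R B] [IsScalarTower R A B] (h : R)

lemma etale_away_trans [Algebra.Etale A B]
    [Algebra.Etale R (Localization.Away (algebraMap R A h))] :
    Algebra.Etale R (Localization.Away (algebraMap R B h)) := by
  have e1 : algebraMap R B h = algebraMap A B (algebraMap R A h) :=
    IsScalarTower.algebraMap_apply R A B h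
  rw [e1]
  have h0 : Algebra.Etale A (Localization.Away (algebraMap A B (algebraMap R A h))) :=
    Algebra.Etale.comp A B _
  letI := locAlg (R := A) (A := B) (algebraMap R A h)
  have h1 := etale_locAlg (R := A) (A := B) (algebraMap R A h)
  have h2 := isScalarTower_locAlg (R := A) (A := B) (algebraMap R A h)
  have h3 : IsScalarTower R (Localization.Away (algebraMap R A h))
      (Localization.Away (algebraMap A B (algebraMap R A h))) := by
    refine IsScalarTower.of_algebraMap_eq fun r => ?_
    have h4 : algebraMap R (Localization.Away (algebraMap A B (algebraMap R A h))) r =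
        algebraMap B (Localization.Away (algebraMap A B (algebraMap R A h))) (algebraMap R B r) :=
      IsScalarTower.algebraMap_apply R B _ r
    rw [h4, IsScalarTower.algebraMap_apply R A B r,
      IsScalarTower.algebraMap_apply R A (Localization.Away (algebraMap R A h)) r,
      ← IsScalarTower.algebraMap_apply A (Localization.Away (algebraMap R A h))
        (Localization.Away (algebraMap A B (algebraMap R A h))),
      ← IsScalarTower.algebraMap_apply A B]
  exact Algebra.Etale.comp R (Localization.Away (algebraMap R A h)) _

end

/-- Covering property over the étale locus in the line. -/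
theorem isCoveringMapOn_coord' (B : Type*) [CommRing B] [Algebra ℂ B] [Algebra ℂ[X] B]
    [IsScalarTower ℂ ℂ[X] B] [Module.Finite ℂ[X] B] (h : ℂ[X])
    [Algebra.Etale ℂ[X] (Localization.Away (algebraMap ℂ[X] B h))] :
    IsCoveringMapOn (coord B) {z : ℂ | h.eval z ≠ 0} := by
  letI := locAlg (A := B) h
  have h1 := etale_locAlg (A := B) h
  have h2 := isScalarTower_locAlg (A := B) h
  have h3 := finite_locAlg (A := B) h
  have h4 : IsScalarTower ℂ (Localization.Away h) (Localization.Away (algebraMap ℂ[X] B h)) := by
    refine IsScalarTower.of_algebraMap_eq fun c => ?_
    rw [IsScalarTower.algebraMap_apply ℂ ℂ[X] (Localization.Away h),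
      ← IsScalarTower.algebraMap_apply ℂ[X] (Localization.Away h)
        (Localization.Away (algebraMap ℂ[X] B h)),
      ← IsScalarTower.algebraMap_apply ℂ ℂ[X] (Localization.Away (algebraMap ℂ[X] B h))]
  exact isCoveringMapOn_coord B h (Localization.Away h) (Localization.Away (algebraMap ℂ[X] B h))

end Groth.Agent.Pi1.H387.EtaleLoc
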