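import Groth.Agent.Pi1.H387.PtsLoc

/-!
# Covering maps over the étale locus (complex points, any universe)
-/

set_option autoImplicit false

open Topology Filter TensorProduct

noncomputable section

namespace Groth.Agent.Pi1.H387.Pts

section

variable {A B : Type*} [CommRing A] [Algebra ℂ A] [CommRing B] [Algebra ℂ B] [Algebra A B]
  [IsScalarTower ℂ A B] (a : A)
  (Aa Ba : Type*) [CommRing Aa] [Algebra ℂ Aa] [Algebra A Aa] [IsScalarTower ℂ A Aa]
  [IsLocalization.Away a Aa] [CommRing Ba] [Algebra ℂ Ba] [Algebra B Ba] [IsScalarTower ℂ B Ba]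
  [IsLocalization.Away (algebraMap A B a) Ba] [Algebra Aa Ba] [Algebra A Ba]
  [IsScalarTower A Aa Ba] [IsScalarTower A B Ba] [IsScalarTower ℂ Aa Ba]

/-- If `B` is an `A`-algebra which is finite étale after inverting `a`, the map on complex points is
a covering map over the locus where `a` does not vanish. -/
theorem isCoveringMapOn_proj [Algebra.Etale Aa Ba] [Module.Finite Aa Ba] :
    IsCoveringMapOn (proj A B) {x : Pts A | x a ≠ 0} := by
  have hs : IsOpen {x : Pts A | x a ≠ 0} := isOpen_ne.preimage (continuous_ev a)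
  refine IsCoveringMapOn.of_isCoveringMap_restrictPreimage _ hs (hs.preimage continuous_proj) ?_
  let e1 : Pts Aa ≃ₜ {x : Pts A | x a ≠ 0} := homeoLoc a
  let e2 : Pts Ba ≃ₜ (proj A B ⁻¹' {x : Pts A | x a ≠ 0}) := homeoLoc (algebraMap A B a)
  have h1 : IsCoveringMap (e1 ∘ proj Aa Ba) := isCoveringMap_proj.homeomorph_comp e1
  have h2 : IsCoveringMap ((e1 ∘ proj Aa Ba) ∘ e2.symm) := h1.comp_homeomorph e2.symm
  have h3 : (e1 ∘ proj Aa Ba) ∘ e2.symm =
      Set.restrictPreimage {x : Pts A | x a ≠ 0} (proj A B) := by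
    funext y
    obtain ⟨z, rfl⟩ := e2.surjective y
    simp only [Function.comp_apply, Homeomorph.symm_apply_apply]
    refine Subtype.ext (ext' fun b => ?_)
    change (proj Aa Ba z) (algebraMap A Aa b) = (proj B Ba z) (algebraMap A B b)
    rw [proj_apply, proj_apply, ← IsScalarTower.algebraMap_apply, ← IsScalarTower.algebraMap_apply]
  rw [← h3]
  exact h2

end

section line

open Polynomial

variable (B : Type*) [CommRing B] [Algebra ℂ B] [Algebra ℂ[X] B] [IsScalarTower ℂ ℂ[X] B]

/-- The value of the coordinate. -/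
def coord : Pts B → ℂ := fun y => y (algebraMap ℂ[X] B X)

lemma coord_eq : coord B = line ∘ proj ℂ[X] B := rfl

lemma continuous_coord : Continuous (coord B) := continuous_ev _

lemma apply_algebraMap (y : Pts B) (q : ℂ[X]) : y (algebraMap ℂ[X] B q) = q.eval (coord B y) := by
  have h1 : (line (proj ℂ[X] B y)) = coord B y := rfl
  have h2 : proj ℂ[X] B y = line.symm (coord B y) := by rw [← h1, Homeomorph.symm_apply_apply]
  rw [← proj_apply, h2]
  change (Polynomial.aeval (coord B y) q : ℂ) = _
  rw [Polynomial.coe_aeval_eq_eval]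

/-- For `B` finite over `ℂ[X]` the coordinate is a proper map. -/
theorem isProperMap_coord [Module.Finite ℂ[X] B] : IsProperMap (coord B) := by
  have hfin : (IsScalarTower.toAlgHom ℂ ℂ[X] B).toRingHom.Finite := by
    change (algebraMap ℂ[X] B).Finite
    exact RingHom.finite_algebraMap.2 inferInstance
  exact line.isProperMap.comp (isProperMap_map _ hfin.to_isIntegral)

theorem finite_fibre_coord [Module.Finite ℂ[X] B] (z : ℂ) : (coord B ⁻¹' {z}).Finite := by
  have hfin : (IsScalarTower.toAlgHom ℂ ℂ[X] B).toRingHom.Finite := by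
    change (algebraMap ℂ[X] B).Finite
    exact RingHom.finite_algebraMap.2 inferInstance
  have h1 := finite_fibre _ hfin (line.symm z)
  refine h1.subset ?_
  intro y hy
  change proj ℂ[X] B y = line.symm z
  rw [← show coord B y = z from hy]
  exact (line.symm_apply_apply _).symm

/-- Covering property over the étale locus in the line. -/
theorem isCoveringMapOn_coord (h : ℂ[X])
    (Aa Ba : Type*) [CommRing Aa] [Algebra ℂ Aa] [Algebra ℂ[X] Aa] [IsScalarTower ℂ ℂ[X] Aa]
    [IsLocalization.Away h Aa] [CommRing Ba] [Algebra ℂ Ba] [Algebra B Ba] [IsScalarTower ℂ B Ba]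
    [IsLocalization.Away (algebraMap ℂ[X] B h) Ba] [Algebra Aa Ba] [Algebra ℂ[X] Ba]
    [IsScalarTower ℂ[X] Aa Ba] [IsScalarTower ℂ[X] B Ba] [IsScalarTower ℂ Aa Ba]
    [Algebra.Etale Aa Ba] [Module.Finite Aa Ba] :
    IsCoveringMapOn (coord B) {z : ℂ | h.eval z ≠ 0} := by
  have h1 := (isCoveringMapOn_proj (B := B) h Aa Ba).homeomorph_comp line
  refine h1.mono ?_
  intro z hz
  change (line.symm z) h ≠ 0
  change (Polynomial.aeval z h : ℂ) ≠ 0
  rwa [Polynomial.coe_aeval_eq_eval]

end line

end Groth.Agent.Pi1.H387.Pts
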