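import Groth.Agent.Pi1.H387.P1Data
import Groth.Agent.Pi1.H387.PtsCov
import Groth.Prelude.Def_FEt

/-!
# Functions on the preimage of an affine open in a finite étale cover, as algebras over `ℂ[T]`,
and the fibre functor in terms of their complex points
-/

set_option autoImplicit false

universe u

open CategoryTheory AlgebraicGeometry Topology

noncomputable section

namespace Groth.Agent.Pi1.H387.Fn

open Groth.Agent.Pi1.H387.Pts Groth.Agent.Pi1.H387.P1Data

variable {K : Type u} [Field K] (e : ℂ ≃+* K) {X : Scheme.{u}} [X.Over (Spec (CommRingCat.of K))]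
  (W : X.Opens) (f : Γ(X, W))

/-- Functions on `W`, as an algebra over `ℂ[T]`, `T ↦ f`. -/
@[nolint unusedArguments]
def Fn₀ (_ : ℂ ≃+* K) (W : X.Opens) (_ : Γ(X, W)) : Type u := Γ(X, W)

instance : CommRing (Fn₀ e W f) := inferInstanceAs (CommRing Γ(X, W))

instance algPoly₀ : Algebra (Polynomial ℂ) (Fn₀ e W f) :=
  ((polyU K X W f).comp (Polynomial.mapRingHom (e : ℂ →+* K))).toAlgebra

instance alg₀ : Algebra ℂ (Fn₀ e W f) :=
  ((algebraMap (Polynomial ℂ) (Fn₀ e W f)).comp Polynomial.C).toAlgebra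

instance : IsScalarTower ℂ (Polynomial ℂ) (Fn₀ e W f) := IsScalarTower.of_algebraMap_eq fun _ => rfl

lemma algebraMap_poly₀_X : (algebraMap (Polynomial ℂ) (Fn₀ e W f)) Polynomial.X = f := by
  change Polynomial.eval₂RingHom (strU K X W) f (Polynomial.mapRingHom (e : ℂ →+* K) Polynomial.X) = f
  simp

lemma algebraMap₀ (c : ℂ) : (algebraMap ℂ (Fn₀ e W f)) c = strU K X W (e c) := by
  change Polynomial.eval₂RingHom (strU K X W) f
    (Polynomial.mapRingHom (e : ℂ →+* K) (Polynomial.C c)) = _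
  simp

variable (Z Z' Z'' : FEt.Cat X)

/-- Functions on the preimage of `W` in the cover `Z`. -/
@[nolint unusedArguments]
def Fn (_ : ℂ ≃+* K) (W : X.Opens) (_ : Γ(X, W)) (Z : FEt.Cat X) : Type u := Γ(Z.left, Z.hom ⁻¹ᵁ W)

instance : CommRing (Fn e W f Z) := inferInstanceAs (CommRing Γ(Z.left, Z.hom ⁻¹ᵁ W))

instance algZ : Algebra (Fn₀ e W f) (Fn e W f Z) := (Z.hom.app W).hom.toAlgebra

instance algPoly : Algebra (Polynomial ℂ) (Fn e W f Z) :=
  ((algebraMap (Fn₀ e W f) (Fn e W f Z)).comp (algebraMap (Polynomial ℂ) (Fn₀ e W f))).toAlgebra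

instance : IsScalarTower (Polynomial ℂ) (Fn₀ e W f) (Fn e W f Z) :=
  IsScalarTower.of_algebraMap_eq fun _ => rfl

instance alg : Algebra ℂ (Fn e W f Z) :=
  ((algebraMap (Fn₀ e W f) (Fn e W f Z)).comp (algebraMap ℂ (Fn₀ e W f))).toAlgebra

instance : IsScalarTower ℂ (Fn₀ e W f) (Fn e W f Z) :=
  IsScalarTower.of_algebraMap_eq fun _ => rfl

instance : IsScalarTower ℂ (Polynomial ℂ) (Fn e W f Z) :=
  IsScalarTower.of_algebraMap_eq fun _ => rfl

lemma isFinite_hom : IsFinite Z.hom := Z.prop.1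

lemma etale_hom : Etale Z.hom := Z.prop.2

variable {W}

lemma isAffineOpen_preimage (hW : IsAffineOpen W) : IsAffineOpen (Z.hom ⁻¹ᵁ W) := by
  have := isFinite_hom Z
  exact hW.preimage Z.hom

lemma finite_Fn (hW : IsAffineOpen W) : Module.Finite (Fn₀ e W f) (Fn e W f Z) := by
  have := isFinite_hom Z
  have h1 : (Z.hom.app W).hom.Finite := IsFinite.finite_app Z.hom W hW
  exact h1

lemma etale_Fn (hW : IsAffineOpen W) : Algebra.Etale (Fn₀ e W f) (Fn e W f Z) := by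
  have := etale_hom Z
  have h1 : (Z.hom.appLE W (Z.hom ⁻¹ᵁ W) le_rfl).hom.Etale :=
    Etale.etale_appLE Z.hom hW (isAffineOpen_preimage Z hW) le_rfl
  rw [Scheme.Hom.appLE_eq_app] at h1
  exact h1

variable (W) in
/-- The map on functions induced by a morphism of covers. -/
def fnMap (α : Z ⟶ Z') : Fn e W f Z' →ₐ[Fn₀ e W f] Fn e W f Z where
  toRingHom := (α.left.appLE (Z'.hom ⁻¹ᵁ W) (Z.hom ⁻¹ᵁ W) (by
    rw [← Scheme.Hom.comp_preimage, show α.left ≫ Z'.hom = Z.hom from Over.w α.hom])).hom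
  commutes' a := by
    change (Z'.hom.app W ≫ α.left.appLE (Z'.hom ⁻¹ᵁ W) (Z.hom ⁻¹ᵁ W) _).hom a = (Z.hom.app W).hom a
    congr 2
    rw [Scheme.Hom.app_eq_appLE, Scheme.Hom.appLE_comp_appLE, Scheme.Hom.app_eq_appLE]
    have h1 : α.left ≫ Z'.hom = Z.hom := Over.w α.hom
    congr 1

/-- The ring homomorphism to `K` of a complex point. -/
def ringK₀ (y : Pts (Fn₀ e W f)) : Γ(X, W) →+* K := (e : ℂ →+* K).comp ((y : Fn₀ e W f →ₐ[ℂ] ℂ) : Fn₀ e W f →+* ℂ)

/-- The ring homomorphism to `K` of a complex point. -/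
def ringK (y : Pts (Fn e W f Z)) : Γ(Z.left, Z.hom ⁻¹ᵁ W) →+* K :=
  (e : ℂ →+* K).comp ((y : Fn e W f Z →ₐ[ℂ] ℂ) : Fn e W f Z →+* ℂ)

lemma ringK_comp (y : Pts (Fn e W f Z)) :
    (ringK e f Z y).comp (Z.hom.app W).hom = ringK₀ e f (proj (Fn₀ e W f) (Fn e W f Z) y) := rfl

lemma ringK_fnMap (α : Z ⟶ Z') (y : Pts (Fn e W f Z)) :
    ringK e f Z' (map ((fnMap e W f Z Z' α).restrictScalars ℂ) y) =
      (ringK e f Z y).comp (α.left.appLE (Z'.hom ⁻¹ᵁ W) (Z.hom ⁻¹ᵁ W) (by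
    rw [← Scheme.Hom.comp_preimage, show α.left ≫ Z'.hom = Z.hom from Over.w α.hom])).hom := rfl

/-- The `K`-point of `X` attached to a complex point. -/
def toPt₀ (hW : IsAffineOpen W) (y : Pts (Fn₀ e W f)) : Spec (CommRingCat.of K) ⟶ X :=
  Spec.map (CommRingCat.ofHom (ringK₀ e f y)) ≫ hW.fromSpec

/-- The `K`-point of `Z` attached to a complex point. -/
def toPt (hW : IsAffineOpen W) (y : Pts (Fn e W f Z)) : Spec (CommRingCat.of K) ⟶ Z.left :=
  Spec.map (CommRingCat.ofHom (ringK e f Z y)) ≫ (isAffineOpen_preimage Z hW).fromSpec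

lemma toPt_hom (hW : IsAffineOpen W) (y : Pts (Fn e W f Z)) :
    toPt e f Z hW y ≫ Z.hom = toPt₀ e f hW (proj (Fn₀ e W f) (Fn e W f Z) y) := by
  unfold toPt toPt₀
  rw [Category.assoc, ← hW.SpecMap_appLE_fromSpec Z.hom (isAffineOpen_preimage Z hW) le_rfl,
    ← Category.assoc, ← Spec.map_comp]
  rw [Scheme.Hom.appLE_eq_app]
  rfl

lemma toPt_injective (hW : IsAffineOpen W) : Function.Injective (toPt e f Z hW) := by
  intro y y' h
  have h1 := (cancel_mono (isAffineOpen_preimage Z hW).fromSpec).1 h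
  have h2 := congrArg CommRingCat.Hom.hom (Spec.map_injective h1)
  refine ext' fun b => e.injective ?_
  exact RingHom.congr_fun h2 b

lemma toPt₀_injective (hW : IsAffineOpen W) : Function.Injective (toPt₀ e f hW) := by
  intro y y' h
  have h1 := (cancel_mono hW.fromSpec).1 h
  have h2 := congrArg CommRingCat.Hom.hom (Spec.map_injective h1)
  refine ext' fun b => e.injective ?_
  exact RingHom.congr_fun h2 b

/-- Every `K`-point of `Z` over the `K`-point of `y₀` comes from a unique complex point. -/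
lemma exists_toPt (hW : IsAffineOpen W) (y₀ : Pts (Fn₀ e W f)) (s : Spec (CommRingCat.of K) ⟶ Z.left)
    (hs : s ≫ Z.hom = toPt₀ e f hW y₀) :
    ∃ y : Pts (Fn e W f Z), proj (Fn₀ e W f) (Fn e W f Z) y = y₀ ∧ toPt e f Z hW y = s := by
  have hW' := isAffineOpen_preimage Z hW
  have hr : Set.range s ⊆ Set.range hW'.fromSpec := by
    rw [hW'.range_fromSpec]
    rintro _ ⟨x, rfl⟩
    change Z.hom (s x) ∈ W
    rw [← Scheme.Hom.comp_apply, hs]
    have : (toPt₀ e f hW y₀) x ∈ Set.range hW.fromSpec :=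
      ⟨(Spec.map (CommRingCat.ofHom (ringK₀ e f y₀))) x, by rw [← Scheme.Hom.comp_apply]; rfl⟩
    rwa [hW.range_fromSpec] at this
  let σ := IsOpenImmersion.lift hW'.fromSpec s hr
  have hσ : σ ≫ hW'.fromSpec = s := IsOpenImmersion.lift_fac _ _ _
  obtain ⟨φ, hφ⟩ := Spec.map_surjective σ
  -- compatibility with the base
  have h1 : (φ.hom).comp (Z.hom.app W).hom = ringK₀ e f y₀ := by
    have h2 : Spec.map (Z.hom.appLE W (Z.hom ⁻¹ᵁ W) le_rfl ≫ φ) ≫ hW.fromSpec =
        Spec.map (CommRingCat.ofHom (ringK₀ e f y₀)) ≫ hW.fromSpec := by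
      rw [Spec.map_comp, Category.assoc, hW.SpecMap_appLE_fromSpec Z.hom hW' le_rfl,
        ← Category.assoc, hφ, hσ, hs]
      rfl
    have h3 := congrArg CommRingCat.Hom.hom (Spec.map_injective ((cancel_mono hW.fromSpec).1 h2))
    rw [Scheme.Hom.appLE_eq_app] at h3
    exact h3
  let y : Fn e W f Z →ₐ[ℂ] ℂ :=
    { (e.symm : K →+* ℂ).comp φ.hom with
      commutes' := fun c => by
        change e.symm (φ.hom ((Z.hom.app W).hom (algebraMap ℂ (Fn₀ e W f) c))) = c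
        have h4 : φ.hom ((Z.hom.app W).hom (algebraMap ℂ (Fn₀ e W f) c)) =
          e (y₀ (algebraMap ℂ (Fn₀ e W f) c)) := RingHom.congr_fun h1 _
        rw [h4, AlgHomClass.commutes]
        exact e.symm_apply_apply c }
  refine ⟨y, ext' fun b => e.injective ?_, ?_⟩
  · change e (e.symm (φ.hom ((Z.hom.app W).hom b))) = e (y₀ b)
    rw [e.apply_symm_apply]
    exact RingHom.congr_fun h1 b
  · have h5 : ringK e f Z y = φ.hom := by
      ext b
      exact e.apply_symm_apply _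
    unfold toPt
    rw [h5]
    change Spec.map φ ≫ _ = s
    rw [hφ, hσ]

/-- The fibre functor at the `K`-point of `y₀` in terms of complex points. -/
def fibEquiv (hW : IsAffineOpen W) (y₀ : Pts (Fn₀ e W f)) :
    (proj (Fn₀ e W f) (Fn e W f Z) ⁻¹' {y₀}) ≃ FEt.fiberObj (toPt₀ e f hW y₀) Z :=
  Equiv.ofBijective (fun y => ⟨toPt e f Z hW y.1, by
    rw [toPt_hom, show proj (Fn₀ e W f) (Fn e W f Z) y.1 = y₀ from y.2]⟩)
    ⟨fun y y' h => Subtype.ext (toPt_injective e f Z hW (congrArg Subtype.val h)), fun s => by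
      obtain ⟨y, hy, hys⟩ := exists_toPt e f Z hW y₀ s.1 s.2
      exact ⟨⟨y, hy⟩, Subtype.ext hys⟩⟩

lemma fibEquiv_val (hW : IsAffineOpen W) (y₀ : Pts (Fn₀ e W f))
    (y : proj (Fn₀ e W f) (Fn e W f Z) ⁻¹' {y₀}) :
    (fibEquiv e f Z hW y₀ y).1 = toPt e f Z hW y.1 := rfl

/-- The map on complex points induced by a morphism of covers. -/
def ptsMap (α : Z ⟶ Z') : Pts (Fn e W f Z) → Pts (Fn e W f Z') :=
  map ((fnMap e W f Z Z' α).restrictScalars ℂ)

lemma continuous_ptsMap (α : Z ⟶ Z') : Continuous (ptsMap e f Z Z' α) := continuous_map _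

lemma proj_ptsMap (α : Z ⟶ Z') (y : Pts (Fn e W f Z)) :
    proj (Fn₀ e W f) (Fn e W f Z') (ptsMap e f Z Z' α y) = proj (Fn₀ e W f) (Fn e W f Z) y := by
  refine ext' fun b => ?_
  change y (fnMap e W f Z Z' α (algebraMap _ _ b)) = y (algebraMap _ _ b)
  rw [AlgHom.commutes]

lemma toPt_ptsMap (hW : IsAffineOpen W) (α : Z ⟶ Z') (y : Pts (Fn e W f Z)) :
    toPt e f Z' hW (ptsMap e f Z Z' α y) = toPt e f Z hW y ≫ α.left := by
  unfold toPt
  have hle : (Z.hom ⁻¹ᵁ W) ≤ α.left ⁻¹ᵁ (Z'.hom ⁻¹ᵁ W) := by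
    rw [← Scheme.Hom.comp_preimage, show α.left ≫ Z'.hom = Z.hom from Over.w α.hom]
  rw [Category.assoc, ← (isAffineOpen_preimage Z' hW).SpecMap_appLE_fromSpec α.left
    (isAffineOpen_preimage Z hW) hle, ← Category.assoc, ← Spec.map_comp]
  rfl

end Groth.Agent.Pi1.H387.Fn
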