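import Groth.Agent.Pi1.H387.Fn
import Groth.Agent.Pi1.H387.EtaleLoc
import Mathlib.Topology.Algebra.Polynomial

/-!
# The coordinate of the complex points of a cover of a curve with two-chart data
-/

set_option autoImplicit false

universe u

open CategoryTheory AlgebraicGeometry Topology Polynomial

noncomputable section

namespace Groth.Agent.Pi1.H387.FnGeom

open Groth.Agent.Pi1.H387.Pts Groth.Agent.Pi1.H387.P1Data Groth.Agent.Pi1.H387.Fn
  Groth.Agent.Pi1.H387.EtaleLoc

variable {K : Type u} [Field K] (e : ℂ ≃+* K) {X : Scheme.{u}} [X.Over (Spec (CommRingCat.of K))]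

section

variable {W : X.Opens} (f : Γ(X, W))

lemma bijective_mapRingHom : Function.Bijective (mapRingHom (e : ℂ →+* K)) :=
  (Polynomial.mapEquiv e).bijective

lemma algebraMap_poly₀ (h : ℂ[X]) :
    algebraMap ℂ[X] (Fn₀ e W f) h = polyU K X W f (h.map (e : ℂ →+* K)) := rfl

lemma finite_poly₀ (h : (polyU K X W f).Finite) : Module.Finite ℂ[X] (Fn₀ e W f) := by
  have h1 : (mapRingHom (e : ℂ →+* K)).Finite :=
    RingHom.Finite.of_surjective _ (bijective_mapRingHom e).2
  exact h.comp h1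

lemma finite_poly (hW : IsAffineOpen W) (h : (polyU K X W f).Finite) (Z : FEt.Cat X) :
    Module.Finite ℂ[X] (Fn e W f Z) := by
  have h1 := finite_poly₀ e f h
  have h2 := finite_Fn e f Z hW
  exact Module.Finite.trans (Fn₀ e W f) _

lemma etale_away₀ (hW : IsAffineOpen W) (h : ℂ[X])
    (hK : (((X.presheaf.map (homOfLE (X.basicOpen_le
      (polyU K X W f (h.map (e : ℂ →+* K))))).op).hom).comp (polyU K X W f)).Etale) :
    Algebra.Etale ℂ[X] (Localization.Away (algebraMap ℂ[X] (Fn₀ e W f) h)) := by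
  let g : Γ(X, W) := polyU K X W f (h.map (e : ℂ →+* K))
  have hloc : @IsLocalization.Away Γ(X, W) _ g Γ(X, X.basicOpen g) _
      ((X.presheaf.map (homOfLE (X.basicOpen_le g)).op).hom.toAlgebra) :=
    hW.isLocalization_basicOpen g
  let B : Type u := Γ(X, X.basicOpen g)
  let _ : CommRing B := inferInstanceAs (CommRing Γ(X, X.basicOpen g))
  let _ : Algebra (Fn₀ e W f) B := (X.presheaf.map (homOfLE (X.basicOpen_le g)).op).hom.toAlgebra
  let _ : Algebra ℂ[X] B :=
    ((algebraMap (Fn₀ e W f) B).comp (algebraMap ℂ[X] (Fn₀ e W f))).toAlgebra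
  have : IsScalarTower ℂ[X] (Fn₀ e W f) B := IsScalarTower.of_algebraMap_eq fun _ => rfl
  have hloc' : IsLocalization.Away (algebraMap ℂ[X] (Fn₀ e W f) h) B := hloc
  have h1 : (mapRingHom (e : ℂ →+* K)).Etale :=
    RingHom.Etale.of_bijective (bijective_mapRingHom e)
  have h2 : Algebra.Etale ℂ[X] B := by
    let _ : Algebra ℂ[X] K[X] := (mapRingHom (e : ℂ →+* K)).toAlgebra
    let _ : Algebra K[X] B := ((algebraMap (Fn₀ e W f) B).comp (polyU K X W f)).toAlgebra
    have : IsScalarTower ℂ[X] K[X] B := IsScalarTower.of_algebraMap_eq fun _ => rfl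
    have h3 : Algebra.Etale ℂ[X] K[X] := h1
    have h4 : Algebra.Etale K[X] B := hK
    exact Algebra.Etale.comp ℂ[X] K[X] B
  let E : Localization.Away (algebraMap ℂ[X] (Fn₀ e W f) h) ≃ₐ[Fn₀ e W f] B :=
    IsLocalization.algEquiv (Submonoid.powers (algebraMap ℂ[X] (Fn₀ e W f) h)) _ _
  exact Algebra.Etale.of_equiv (E.restrictScalars ℂ[X]).symm

lemma etale_away (hW : IsAffineOpen W) (h : ℂ[X])
    [Algebra.Etale ℂ[X] (Localization.Away (algebraMap ℂ[X] (Fn₀ e W f) h))] (Z : FEt.Cat X) :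
    Algebra.Etale ℂ[X] (Localization.Away (algebraMap ℂ[X] (Fn e W f Z) h)) := by
  have h2 := etale_Fn e f Z hW
  exact etale_away_trans ℂ[X] (Fn₀ e W f) (Fn e W f Z) h

lemma coord_proj (Z : FEt.Cat X) (y : Pts (Fn e W f Z)) :
    coord (Fn₀ e W f) (proj (Fn₀ e W f) (Fn e W f Z) y) = coord (Fn e W f Z) y := rfl

theorem isCoveringMap_proj (hW : IsAffineOpen W) (Z : FEt.Cat X) :
    IsCoveringMap (proj (Fn₀ e W f) (Fn e W f Z)) := by
  have h1 := finite_Fn e f Z hW
  have h2 := etale_Fn e f Z hW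
  exact Pts.isCoveringMap_proj

end

section data

variable (D : Data K X)

/-- The branch points in `ℂ`. -/
def br : Finset ℂ := D.S.map e.symm.toEquiv.toEmbedding

/-- The polynomial with the branch points as roots. -/
def brPoly : ℂ[X] := ∏ b ∈ D.S, (Polynomial.X - C (e.symm b))

lemma brPoly_map : (brPoly e D).map (e : ℂ →+* K) = ∏ b ∈ D.S, (Polynomial.X - C b) := by
  unfold brPoly
  rw [Polynomial.map_prod]
  refine Finset.prod_congr rfl fun b _ => ?_
  rw [Polynomial.map_sub, Polynomial.map_X, Polynomial.map_C]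
  congr 2
  exact e.apply_symm_apply b

lemma mem_br (z : ℂ) : z ∈ br e D ↔ e z ∈ D.S := by
  unfold br
  rw [Finset.mem_map]
  constructor
  · rintro ⟨b, hb, rfl⟩
    change e (e.symm b) ∈ _
    rwa [e.apply_symm_apply]
  · intro hz
    exact ⟨e z, hz, e.symm_apply_apply z⟩

lemma eval_brPoly (z : ℂ) : (brPoly e D).eval z ≠ 0 ↔ z ∈ ((br e D : Finset ℂ) : Set ℂ)ᶜ := by
  rw [Set.mem_compl_iff, Finset.mem_coe, mem_br]
  unfold brPoly
  rw [Polynomial.eval_prod, Finset.prod_ne_zero_iff]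
  constructor
  · intro h hz
    refine h (e z) hz ?_
    rw [eval_sub, eval_X, eval_C, e.symm_apply_apply, sub_self]
  · intro hz b hb h
    rw [eval_sub, eval_X, eval_C, sub_eq_zero] at h
    apply hz
    rw [h, e.apply_symm_apply]
    exact hb

lemma setOf_eval_brPoly : {z : ℂ | (brPoly e D).eval z ≠ 0} = ((br e D : Finset ℂ) : Set ℂ)ᶜ := by
  ext z
  exact eval_brPoly e D z

instance finite₀ : Module.Finite ℂ[X] (Fn₀ e D.W0 D.t) := finite_poly₀ e D.t D.fin0

instance finiteI₀ : Module.Finite ℂ[X] (Fn₀ e D.Wi D.s) := finite_poly₀ e D.s D.fini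

instance finiteZ (Z : FEt.Cat X) : Module.Finite ℂ[X] (Fn e D.W0 D.t Z) :=
  finite_poly e D.t D.hW0 D.fin0 Z

instance finiteIZ (Z : FEt.Cat X) : Module.Finite ℂ[X] (Fn e D.Wi D.s Z) :=
  finite_poly e D.s D.hWi D.fini Z

instance etaleBr : Algebra.Etale ℂ[X]
    (Localization.Away (algebraMap ℂ[X] (Fn₀ e D.W0 D.t) (brPoly e D))) := by
  refine etale_away₀ e D.t D.hW0 _ ?_
  have h := D.etale
  rw [← brPoly_map e D] at h
  exact h

instance etaleBrZ (Z : FEt.Cat X) : Algebra.Etale ℂ[X]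
    (Localization.Away (algebraMap ℂ[X] (Fn e D.W0 D.t Z) (brPoly e D))) :=
  etale_away e D.t D.hW0 _ Z

theorem isCoveringMapOn₀ :
    IsCoveringMapOn (coord (Fn₀ e D.W0 D.t)) ((br e D : Finset ℂ) : Set ℂ)ᶜ := by
  rw [← setOf_eval_brPoly]
  exact isCoveringMapOn_coord' (Fn₀ e D.W0 D.t) (brPoly e D)

theorem isCoveringMapOn (Z : FEt.Cat X) :
    IsCoveringMapOn (coord (Fn e D.W0 D.t Z)) ((br e D : Finset ℂ) : Set ℂ)ᶜ := by
  rw [← setOf_eval_brPoly]
  exact isCoveringMapOn_coord' (Fn e D.W0 D.t Z) (brPoly e D)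

lemma card_br : (br e D).card = D.S.card := Finset.card_map _

end data

end Groth.Agent.Pi1.H387.FnGeom
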