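import Groth.Prelude.Def_FEt
import Mathlib.Algebra.Group.End

/-!
# Homomorphisms to the fundamental group from natural actions
-/

set_option autoImplicit false

universe u v w

open CategoryTheory AlgebraicGeometry

namespace Groth.Agent.Pi1.H387.NatHom

variable {X : Scheme.{u}} {Ω : Type u} [Field Ω] (ξ : Spec (CommRingCat.of Ω) ⟶ X)

/-- A group `Γ` acting naturally on sets `A Z` containing the fibres of the covers `Z`, such that the
fibres are stable under the subgroup `H`. -/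
structure ActOn (Γ : Type v) [Group Γ] (H : Subgroup Γ) where
  /-- the sets -/
  A : FEt.Cat X → Type w
  /-- the action -/
  a : ∀ Z, Γ →* Equiv.Perm (A Z)
  /-- the inclusion of the fibre -/
  incl : ∀ Z, FEt.fiberObj ξ Z → A Z
  inj : ∀ Z, Function.Injective (incl Z)
  stable : ∀ Z (h : Γ), h ∈ H → ∀ s, ∃ t, incl Z t = a Z h (incl Z s)
  /-- functoriality -/
  m : ∀ {Z Z' : FEt.Cat X} (_ : Z ⟶ Z'), A Z → A Z'
  m_a : ∀ {Z Z' : FEt.Cat X} (α : Z ⟶ Z') (γ : Γ) (x : A Z), m α (a Z γ x) = a Z' γ (m α x)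
  incl_map : ∀ {Z Z' : FEt.Cat X} (α : Z ⟶ Z') (s : FEt.fiberObj ξ Z),
    incl Z' ((FEt.fiber ξ).map α s) = m α (incl Z s)

variable {ξ} {Γ : Type v} [Group Γ] {H : Subgroup Γ} (D : ActOn.{u, v, w} ξ Γ H)

namespace ActOn

/-- The function on the fibre. -/
noncomputable def fn (h : Γ) (hh : h ∈ H) (Z : FEt.Cat X) (s : FEt.fiberObj ξ Z) :
    FEt.fiberObj ξ Z := (D.stable Z h hh s).choose

lemma incl_fn (h : Γ) (hh : h ∈ H) (Z : FEt.Cat X) (s : FEt.fiberObj ξ Z) :
    D.incl Z (D.fn h hh Z s) = D.a Z h (D.incl Z s) := (D.stable Z h hh s).choose_spec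

lemma fn_fn (h h' : Γ) (hh : h ∈ H) (hh' : h' ∈ H) (Z : FEt.Cat X) (s : FEt.fiberObj ξ Z) :
    D.fn h hh Z (D.fn h' hh' Z s) = D.fn (h * h') (mul_mem hh hh') Z s := by
  apply D.inj
  rw [D.incl_fn, D.incl_fn, D.incl_fn, map_mul]
  rfl

lemma fn_one (Z : FEt.Cat X) (s : FEt.fiberObj ξ Z) : D.fn 1 (one_mem H) Z s = s := by
  apply D.inj
  rw [D.incl_fn, map_one]
  rfl

/-- The permutation of the fibre. -/
noncomputable def equiv (h : Γ) (hh : h ∈ H) (Z : FEt.Cat X) :
    FEt.fiberObj ξ Z ≃ FEt.fiberObj ξ Z where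
  toFun := D.fn h hh Z
  invFun := D.fn h⁻¹ (inv_mem hh) Z
  left_inv s := by
    rw [fn_fn]
    simp only [inv_mul_cancel]
    exact D.fn_one Z s
  right_inv s := by
    rw [fn_fn]
    simp only [mul_inv_cancel]
    exact D.fn_one Z s

/-- The automorphism of the fibre functor. -/
noncomputable def iso (h : Γ) (hh : h ∈ H) : FEt.piOne X ξ :=
  NatIso.ofComponents (fun Z => (D.equiv h hh Z).toIso) (by
    intro Z Z' φ
    ext s
    change D.fn h hh Z' ((FEt.fiber ξ).map φ s) = (FEt.fiber ξ).map φ (D.fn h hh Z s)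
    apply D.inj
    rw [D.incl_fn, D.incl_map, D.incl_map, D.incl_fn, D.m_a])

/-- The homomorphism to the fundamental group. -/
noncomputable def hom : H →* FEt.piOne X ξ where
  toFun h := D.iso h.1 h.2
  map_one' := by
    ext1
    ext Z s
    exact D.fn_one Z s
  map_mul' h h' := by
    ext1
    ext Z s
    exact (D.fn_fn h.1 h'.1 h.2 h'.2 Z s).symm

lemma incl_hom (h : H) (Z : FEt.Cat X) (s : FEt.fiberObj ξ Z) :
    D.incl Z ((D.hom h).hom.app Z s) = D.a Z h (D.incl Z s) := D.incl_fn h.1 h.2 Z s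

/-- An element acting trivially on all fibres goes to `1`. -/
lemma hom_eq_one (h : H) (hh : ∀ Z (s : FEt.fiberObj ξ Z), D.a Z h (D.incl Z s) = D.incl Z s) :
    D.hom h = 1 := by
  ext1
  ext Z s
  apply D.inj
  exact (D.incl_hom h Z s).trans (hh Z s)

end ActOn

end Groth.Agent.Pi1.H387.NatHom
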