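import Mathlib.AlgebraicGeometry.AffineScheme
import Mathlib.AlgebraicGeometry.Over
import Mathlib.RingTheory.RingHom.Etale
import Mathlib.RingTheory.RingHom.Finite
import Mathlib.Algebra.Polynomial.Eval.Defs

/-!
# Two-chart data of a finite generically étale map from a curve to the projective line
-/

set_option autoImplicit false

universe u

open CategoryTheory AlgebraicGeometry

namespace Groth.Agent.Pi1.H387.P1Data

variable (K : Type u) [Field K] (X : Scheme.{u}) [X.Over (Spec (CommRingCat.of K))]

/-- The constants in the functions on an open subset. -/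
noncomputable def strU (U : X.Opens) : K →+* Γ(X, U) :=
  ((X ↘ Spec (CommRingCat.of K)).appLE ⊤ U le_top).hom.comp
    (Scheme.ΓSpecIso (CommRingCat.of K)).inv.hom

/-- The homomorphism `K[T] → Γ(X, U)`, `T ↦ f`. -/
noncomputable def polyU (U : X.Opens) (f : Γ(X, U)) : Polynomial K →+* Γ(X, U) :=
  Polynomial.eval₂RingHom (strU K X U) f

/-- The data of a finite map `f : X → ℙ¹` over `K` in two charts, étale over the complement of
`S ∪ {∞}`: `W0 = f⁻¹(𝔸¹)` with the coordinate `t`, `Wi = f⁻¹(ℙ¹ ∖ 0)` with the coordinate `s = 1/t`. -/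
structure Data where
  /-- preimage of the affine line -/
  W0 : X.Opens
  /-- preimage of the complement of the origin -/
  Wi : X.Opens
  hW0 : IsAffineOpen W0
  hWi : IsAffineOpen Wi
  cover : W0 ⊔ Wi = ⊤
  /-- the coordinate -/
  t : Γ(X, W0)
  /-- the coordinate at infinity -/
  s : Γ(X, Wi)
  ht : X.basicOpen t = W0 ⊓ Wi
  hs : X.basicOpen s = W0 ⊓ Wi
  hts : (X.presheaf.map (homOfLE (inf_le_left : W0 ⊓ Wi ≤ W0)).op).hom t *
    (X.presheaf.map (homOfLE (inf_le_right : W0 ⊓ Wi ≤ Wi)).op).hom s = 1
  fin0 : (polyU K X W0 t).Finite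
  fini : (polyU K X Wi s).Finite
  inj0 : Function.Injective (polyU K X W0 t)
  /-- the finite branch points -/
  S : Finset K
  etale : (((X.presheaf.map (homOfLE (X.basicOpen_le
      (polyU K X W0 t (∏ b ∈ S, (Polynomial.X - Polynomial.C b))))).op).hom).comp
    (polyU K X W0 t)).Etale

end Groth.Agent.Pi1.H387.P1Data
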