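import Mathlib.Algebra.BigOperators.Group.List.Basic
import Mathlib.Algebra.Group.Subgroup.Lattice
import Mathlib.Data.Fin.Tuple.Basic
import Mathlib.Data.List.OfFn

/-!
# Padding the generators with `1`
-/

set_option autoImplicit false

namespace Groth.Agent.Pi1.H387.Pad

variable {P : Type*} [Group P]

/-- More generators of the standard form. -/
theorem exists_pad {g G : ℕ} (h : g ≤ G) (s t : Fin g → P)
    (hst : (List.ofFn fun i : Fin g => s i * t i * (s i)⁻¹ * (t i)⁻¹).prod = 1) :
    ∃ s' t' : Fin G → P,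
      (List.ofFn fun i : Fin G => s' i * t' i * (s' i)⁻¹ * (t' i)⁻¹).prod = 1 ∧
      Set.range s ∪ Set.range t ⊆ Set.range s' ∪ Set.range t' := by
  obtain ⟨k, rfl⟩ := Nat.exists_eq_add_of_le h
  refine ⟨Fin.append s (fun _ : Fin k => 1), Fin.append t (fun _ : Fin k => 1), ?_, ?_⟩
  · have h1 : (fun i : Fin (g + k) => Fin.append s (fun _ : Fin k => 1) i *
        Fin.append t (fun _ : Fin k => 1) i * (Fin.append s (fun _ : Fin k => 1) i)⁻¹ *
        (Fin.append t (fun _ : Fin k => 1) i)⁻¹) =
        Fin.append (fun i : Fin g => s i * t i * (s i)⁻¹ * (t i)⁻¹) (fun _ : Fin k => 1) := by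
      funext i
      refine Fin.addCases (fun j => ?_) (fun j => ?_) i
      · simp only [Fin.append_left]
      · simp only [Fin.append_right, inv_one, mul_one]
    rw [h1, List.ofFn_fin_append, List.prod_append, hst, one_mul]
    refine List.prod_eq_one fun x hx => ?_
    rw [List.mem_ofFn] at hx
    obtain ⟨i, rfl⟩ := hx
    rfl
  · rintro x (⟨i, rfl⟩ | ⟨i, rfl⟩)
    · exact Or.inl ⟨Fin.castAdd k i, Fin.append_left _ _ i⟩
    · exact Or.inr ⟨Fin.castAdd k i, Fin.append_left _ _ i⟩

end Groth.Agent.Pi1.H387.Pad
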