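import Groth.Agent.Pi1.H387.Conn

/-!
# Restriction of functions and the overlap of the two charts
-/

set_option autoImplicit false

universe u

open CategoryTheory AlgebraicGeometry Topology Polynomial

noncomputable section

namespace Groth.Agent.Pi1.H387.Restr

open Groth.Agent.Pi1.H387.Pts Groth.Agent.Pi1.H387.P1Data Groth.Agent.Pi1.H387.Fn
  Groth.Agent.Pi1.H387.FnGeom

theorem isOpenEmbedding_map {A B : Type*} [CommRing A] [CommRing B] [Algebra ℂ A] [Algebra ℂ B]
    (φ : A →ₐ[ℂ] B) (f : A) (h : @IsLocalization.Away A _ f B _ φ.toRingHom.toAlgebra) :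
    IsOpenEmbedding (map φ) := by
  let _ : Algebra A B := φ.toRingHom.toAlgebra
  have : IsScalarTower ℂ A B := IsScalarTower.of_algebraMap_eq fun c => (φ.commutes c).symm
  exact Pts.isOpenEmbedding_proj (B := A) (Bf := B) f

theorem range_map {A B : Type*} [CommRing A] [CommRing B] [Algebra ℂ A] [Algebra ℂ B]
    (φ : A →ₐ[ℂ] B) (f : A) (h : @IsLocalization.Away A _ f B _ φ.toRingHom.toAlgebra) :
    Set.range (map φ) = {x | x f ≠ 0} := by
  let _ : Algebra A B := φ.toRingHom.toAlgebra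
  have : IsScalarTower ℂ A B := IsScalarTower.of_algebraMap_eq fun c => (φ.commutes c).symm
  exact Pts.range_proj (B := A) (Bf := B) f

variable {K : Type u} [Field K] (e : ℂ ≃+* K) {X : Scheme.{u}} [X.Over (Spec (CommRingCat.of K))]

lemma map_strU {W W' : X.Opens} (hle : W' ≤ W) (k : K) :
    (X.presheaf.map (homOfLE hle).op).hom (strU K X W k) = strU K X W' k := by
  have h : (X ↘ Spec (CommRingCat.of K)).appLE ⊤ W le_top ≫ X.presheaf.map (homOfLE hle).op =
      (X ↘ Spec (CommRingCat.of K)).appLE ⊤ W' le_top := Scheme.Hom.appLE_map _ _ _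
  exact congrArg (fun φ => φ.hom ((Scheme.ΓSpecIso (CommRingCat.of K)).inv.hom k)) h

/-- Restriction of functions. -/
def res₀ {W W' : X.Opens} (hle : W' ≤ W) (f : Γ(X, W)) (f' : Γ(X, W')) :
    Fn₀ e W f →ₐ[ℂ] Fn₀ e W' f' where
  toRingHom := (X.presheaf.map (homOfLE hle).op).hom
  commutes' k := by
    rw [algebraMap₀, algebraMap₀]
    exact map_strU hle (e k)

variable (Z : FEt.Cat X)

lemma map_app {W W' : X.Opens} (hle : W' ≤ W) (g : Γ(X, W)) :
    (Z.left.presheaf.map (homOfLE (Z.hom.preimage_mono hle)).op).hom ((Z.hom.app W).hom g) =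
      (Z.hom.app W').hom ((X.presheaf.map (homOfLE hle).op).hom g) := by
  have h := Z.hom.naturality (homOfLE hle).op
  exact (congrArg (fun φ => φ.hom g) h).symm

/-- Restriction of functions on a cover. -/
def resZ {W W' : X.Opens} (hle : W' ≤ W) (f : Γ(X, W)) (f' : Γ(X, W')) :
    Fn e W f Z →ₐ[ℂ] Fn e W' f' Z where
  toRingHom := (Z.left.presheaf.map (homOfLE (Z.hom.preimage_mono hle)).op).hom
  commutes' k := by
    change (Z.left.presheaf.map (homOfLE (Z.hom.preimage_mono hle)).op).hom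
      ((Z.hom.app W).hom (algebraMap ℂ (Fn₀ e W f) k)) =
        (Z.hom.app W').hom (algebraMap ℂ (Fn₀ e W' f') k)
    rw [map_app]
    congr 1
    exact (res₀ e hle f f').commutes k

lemma proj_resZ {W W' : X.Opens} (hle : W' ≤ W) (f : Γ(X, W)) (f' : Γ(X, W'))
    (y : Pts (Fn e W' f' Z)) :
    map (res₀ e hle f f') (proj (Fn₀ e W' f') (Fn e W' f' Z) y) =
      proj (Fn₀ e W f) (Fn e W f Z) (map (resZ e Z hle f f') y) := by
  refine ext' fun g => ?_
  change y ((Z.hom.app W').hom ((X.presheaf.map (homOfLE hle).op).hom g)) =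
    y ((Z.left.presheaf.map (homOfLE (Z.hom.preimage_mono hle)).op).hom ((Z.hom.app W).hom g))
  rw [map_app]

lemma isLocalization_res₀ {W W' : X.Opens} (hW : IsAffineOpen W) (hle : W' ≤ W) (f : Γ(X, W))
    (f' : Γ(X, W')) (h : X.basicOpen f = W') :
    @IsLocalization.Away (Fn₀ e W f) _ f (Fn₀ e W' f') _ (res₀ e hle f f').toRingHom.toAlgebra :=
  hW.isLocalization_of_eq_basicOpen f (homOfLE hle) h.symm

lemma isLocalization_resZ {W W' : X.Opens} (hW : IsAffineOpen W) (hle : W' ≤ W) (f : Γ(X, W))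
    (f' : Γ(X, W')) (h : X.basicOpen f = W') :
    @IsLocalization.Away (Fn e W f Z) _ ((Z.hom.app W).hom f) (Fn e W' f' Z) _
      (resZ e Z hle f f').toRingHom.toAlgebra := by
  refine (isAffineOpen_preimage Z hW).isLocalization_of_eq_basicOpen ((Z.hom.app W).hom f)
    (homOfLE (Z.hom.preimage_mono hle)) ?_
  rw [← h]
  exact Scheme.preimage_basicOpen Z.hom f

end Groth.Agent.Pi1.H387.Restr
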